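import Cfsg.Agent.H727.Orth.SporTool
import Cfsg.Agent.S2119

/-!
# The alternating groups

`evenO_alt` : `EvenO (alternatingGroup (Fin n))` for `n ≥ 5`, `n ≠ 6`, from a cycle of length `n - 2` or
`n - 3`.
-/

set_option autoImplicit false
set_option linter.unusedSectionVars false
set_option linter.style.haveILetI false

namespace Cfsg.Agent.H727.Orth

open Cfsg Subgroup Equiv Equiv.Perm

theorem exists_cycle {n r : ℕ} (hr : 2 ≤ r) (hrn : r ≤ n) :
    ∃ y : Perm (Fin n), y.cycleType = {r} := by
  apply (Equiv.Perm.exists_with_cycleType_iff (Fin n)).2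
  rw [Multiset.sum_singleton, Fintype.card_fin]
  refine ⟨hrn, fun a ha => ?_⟩
  rw [Multiset.mem_singleton] at ha
  rw [ha]
  exact hr

theorem sign_cycle {n r : ℕ} {y : Perm (Fin n)} (hy : y.cycleType = {r}) (hodd : Odd r) : sign y = 1 := by
  rw [sign_of_cycleType, hy, Multiset.sum_singleton, Multiset.card_singleton]
  exact (hodd.add_one).neg_one_pow

/-- The centralizer of an odd cycle in the alternating group. -/
theorem card_centralizer_cycle {n r : ℕ} {y : Perm (Fin n)} (hy : y.cycleType = {r})
    (hrn : r + 2 ≤ n) (h4 : ¬ 4 ∣ (n - r).factorial * r) (hm : y ∈ alternatingGroup (Fin n)) :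
    Odd (Nat.card (centralizer ({(⟨y, hm⟩ : alternatingGroup (Fin n))} : Set (alternatingGroup (Fin n))))) := by
  classical
  have hc : Nat.card (centralizer ({y} : Set (Perm (Fin n)))) = (n - r).factorial * r := by
    rw [nat_card_centralizer, hy]
    simp
  set C := centralizer ({y} : Set (Perm (Fin n))) with hC
  -- the even elements of the centralizer
  have h1 : Nat.card (centralizer ({(⟨y, hm⟩ : alternatingGroup (Fin n))} : Set (alternatingGroup (Fin n)))) =
      Nat.card ((sign.ker).subgroupOf C) := by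
    refine Nat.card_congr ⟨fun u => ⟨⟨(u : alternatingGroup (Fin n)), ?_⟩, ?_⟩,
      fun u => ⟨⟨(u : C), ?_⟩, ?_⟩, fun u => ?_, fun u => ?_⟩
    · rw [hC, mem_centralizer_singleton_iff]
      exact congrArg Subtype.val (mem_centralizer_singleton_iff.1 u.2)
    · exact mem_alternatingGroup.1 (u : alternatingGroup (Fin n)).2
    · exact mem_alternatingGroup.2 (mem_subgroupOf.1 u.2)
    · rw [mem_centralizer_singleton_iff]
      exact Subtype.ext (mem_centralizer_singleton_iff.1 (u : C).2)
    · rfl
    · rfl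
  -- an odd element of the centralizer
  have hsupp : y.support.card = r := by
    rw [← sum_cycleType, hy, Multiset.sum_singleton]
  obtain ⟨a, ha, b, hb, hab⟩ : ∃ a ∈ y.supportᶜ, ∃ b ∈ y.supportᶜ, a ≠ b := by
    rw [← Finset.one_lt_card]
    rw [Finset.card_compl, hsupp, Fintype.card_fin]
    omega
  have hsw : swap a b ∈ C := by
    rw [hC, mem_centralizer_singleton_iff]
    have hd : Disjoint (swap a b) y := by
      rw [disjoint_iff_disjoint_support, support_swap hab]
      rw [Finset.disjoint_left]
      intro x hx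
      rw [Finset.mem_insert, Finset.mem_singleton] at hx
      rcases hx with rfl | rfl
      · exact Finset.mem_compl.1 ha
      · exact Finset.mem_compl.1 hb
    exact hd.commute.eq
  have h2 : ((sign.ker).subgroupOf C).index = 2 := by
    have h3 : ((sign.ker).subgroupOf C) = (sign.comp C.subtype).ker := rfl
    rw [h3, Subgroup.index_ker]
    have h5 : (sign.comp C.subtype).range = ⊤ := by
      rw [eq_top_iff]
      intro z _
      rcases Int.units_eq_one_or z with rfl | rfl
      · exact one_mem _
      · exact ⟨⟨swap a b, hsw⟩, sign_swap hab⟩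
    rw [h5, Subgroup.card_top]
    simp
  have h3 := ((sign.ker).subgroupOf C).card_mul_index
  rw [h2, hc, ← h1] at h3
  rw [← Nat.not_even_iff_odd]
  rintro ⟨k, hk⟩
  apply h4
  rw [← h3, hk]
  exact ⟨k, by ring⟩

theorem center_alt {n : ℕ} (hn : 5 ≤ n) : center (alternatingGroup (Fin n)) = ⊥ := by
  apply alternatingGroup.center_eq_bot
  rw [Nat.card_eq_fintype_card, Fintype.card_fin]
  omega

/-- **The alternating groups.** -/
theorem evenO_alt {n : ℕ} (hn : 5 ≤ n) (h6 : n ≠ 6) : EvenO (alternatingGroup (Fin n)) := by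
  classical
  obtain ⟨r, hr3, hrn, hodd, h4⟩ : ∃ r, 3 ≤ r ∧ r + 2 ≤ n ∧ Odd r ∧ ¬ 4 ∣ (n - r).factorial * r := by
    rcases Nat.even_or_odd n with he | ho
    · refine ⟨n - 3, by obtain ⟨k, hk⟩ := he; omega, by omega, ?_, ?_⟩
      · obtain ⟨k, hk⟩ := he
        exact ⟨k - 2, by omega⟩
      · obtain ⟨k, hk⟩ := he
        rw [show n - (n - 3) = 3 by omega, show Nat.factorial 3 = 6 from rfl]
        omega
    · refine ⟨n - 2, by omega, by omega, ?_, ?_⟩
      · obtain ⟨k, hk⟩ := ho
        exact ⟨k - 1, by omega⟩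
      · obtain ⟨k, hk⟩ := ho
        rw [show n - (n - 2) = 2 by omega, show Nat.factorial 2 = 2 from rfl]
        omega
  obtain ⟨y, hy⟩ := exists_cycle (n := n) (show 2 ≤ r by omega) (by omega)
  have hm : y ∈ alternatingGroup (Fin n) := mem_alternatingGroup.2 (sign_cycle hy hodd)
  have hsupp : y.support.card = r := by
    rw [← sum_cycleType, hy, Multiset.sum_singleton]
  have hsm : y.support.card + 2 ≤ Fintype.card (Fin n) := by
    rw [hsupp, Fintype.card_fin]
    exact hrn
  have hy1 : (⟨y, hm⟩ : alternatingGroup (Fin n)) ≠ 1 := by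
    intro h
    have h1 : y = 1 := congrArg Subtype.val h
    rw [h1, cycleType_one] at hy
    exact absurd hy.symm (Multiset.singleton_ne_zero r)
  refine evenO_of_inv (center_alt hn) (y := ⟨y, hm⟩) ⟨⊥, locS_of_odd hy1 ?_
    (card_centralizer_cycle hy hrn h4 hm)⟩ fun α => ?_
  · refine alternatingGroup.isConj_of ?_ hsm
    rw [isConj_iff_cycleType_eq]
    show y.cycleType = (y⁻¹).cycleType
    rw [cycleType_inv]
  · obtain ⟨σ, rfl⟩ := (S2119.result n (by omega) h6).2 α
    refine alternatingGroup.isConj_of ?_ hsm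
    rw [isConj_iff]
    exact ⟨σ, (MulAut.conjNormal_apply σ _).symm⟩

end Cfsg.Agent.H727.Orth
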