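import Cfsg.Agent.H727.Orth.Alt

/-!
# The alternating group of degree seven

`orthRow_seven` : the character of degree fourteen, the difference of the permutation characters on the pairs
of points and on the points.
-/

set_option autoImplicit false
set_option linter.unusedSectionVars false
set_option linter.style.haveILetI false

namespace Cfsg.Agent.H727.Orth.Seven

open Cfsg Equiv Equiv.Perm
open scoped ComplexConjugate
open Cfsg.Agent.Characters.Core
open Cfsg.Agent.H705.StrongLin (ind ind_eq real_of_ind)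
open Cfsg.Agent.H694 (mu mu_eq irr_mu_spec RChar rchar_irr rchar_perm permC permC_one classInner_permC)

/-- counting orbits by an invariant -/
theorem card_orbits_of {G X : Type*} [Group G] [MulAction G X] {k : ℕ} (F : X → Fin k) (r : Fin k → X)
    (hinv : ∀ (g : G) x, F (g • x) = F x) (hr : ∀ i, F (r i) = i)
    (hex : ∀ x, ∃ g : G, g • r (F x) = x) : Nat.card (MulAction.orbitRel.Quotient G X) = k := by
  let f : MulAction.orbitRel.Quotient G X → Fin k := Quotient.lift F (by
    rintro a b ⟨g, hg⟩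
    rw [← hg]
    exact hinv g b)
  have hf : Function.Bijective f := by
    constructor
    · intro a b
      refine Quotient.inductionOn₂ a b fun x y hxy => ?_
      have h1 : F x = F y := hxy
      obtain ⟨g, hg⟩ := hex x
      obtain ⟨h, hh⟩ := hex y
      apply Quotient.sound
      show ∃ _, _
      refine ⟨g * h⁻¹, ?_⟩
      show (g * h⁻¹) • y = x
      rw [← hh, mul_smul, inv_smul_smul, ← h1, hg]
    · intro i
      exact ⟨Quotient.mk _ (r i), hr i⟩
  rw [Nat.card_congr (Equiv.ofBijective f hf), Nat.card_eq_fintype_card, Fintype.card_fin]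

/-- the pairs of points -/
abbrev X2 : Type := {s : Finset (Fin 7) // s.card = 2}

instance actX2 : MulAction (Perm (Fin 7)) X2 where
  smul g s := ⟨s.1.map g.toEmbedding, by rw [Finset.card_map, s.2]⟩
  one_smul s := Subtype.ext (by
    show s.1.map (Function.Embedding.refl (Fin 7)) = s.1
    exact Finset.map_refl)
  mul_smul g h s := Subtype.ext (by
    show s.1.map (g * h : Perm (Fin 7)).toEmbedding = (s.1.map h.toEmbedding).map g.toEmbedding
    rw [Finset.map_map]
    rfl)

theorem smul_val (g : Perm (Fin 7)) (s : X2) : (g • s).1 = s.1.map g.toEmbedding := rfl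

theorem smul_val' (g : alternatingGroup (Fin 7)) (s : X2) :
    (g • s).1 = s.1.map (g : Perm (Fin 7)).toEmbedding := rfl

/-- the alternating group is four times transitive -/
theorem exists_four (a b c d : Fin 7) (hab : a ≠ b) (hac : a ≠ c) (had : a ≠ d) (hbc : b ≠ c)
    (hbd : b ≠ d) (hcd : c ≠ d) : ∃ g : alternatingGroup (Fin 7),
      (g : Perm (Fin 7)) 0 = a ∧ (g : Perm (Fin 7)) 1 = b ∧ (g : Perm (Fin 7)) 2 = c ∧
      (g : Perm (Fin 7)) 3 = d := by
  have h5 : MulAction.IsMultiplyPretransitive (alternatingGroup (Fin 7)) (Fin 7) (Nat.card (Fin 7) - 2) :=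
    alternatingGroup.isMultiplyPretransitive (Fin 7)
  have h4 : MulAction.IsMultiplyPretransitive (alternatingGroup (Fin 7)) (Fin 7) 4 := by
    apply MulAction.isMultiplyPretransitive_of_le (n := Nat.card (Fin 7) - 2)
    · rw [Nat.card_eq_fintype_card, Fintype.card_fin]
      norm_num
    · exact Nat.sub_le _ _
  let x : Fin 4 ↪ Fin 7 := ⟨![0, 1, 2, 3], by decide⟩
  let y : Fin 4 ↪ Fin 7 := ⟨![a, b, c, d], by
    intro i j hij
    fin_cases i <;> fin_cases j <;> simp_all⟩
  obtain ⟨g, hg⟩ := MulAction.isMultiplyPretransitive_iff.1 h4 x y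
  have h : ∀ i, (g : Perm (Fin 7)) (x i) = y i := fun i => by
    rw [← hg]
    rfl
  exact ⟨g, h 0, h 1, h 2, h 3⟩

theorem exists_three (a b c : Fin 7) (hab : a ≠ b) (hac : a ≠ c) (hbc : b ≠ c) :
    ∃ g : alternatingGroup (Fin 7),
      (g : Perm (Fin 7)) 0 = a ∧ (g : Perm (Fin 7)) 1 = b ∧ (g : Perm (Fin 7)) 2 = c := by
  obtain ⟨d, hd⟩ : ∃ d, d ∉ ({a, b, c} : Finset (Fin 7)) := by
    by_contra hno
    push Not at hno
    have h1 : (Finset.univ : Finset (Fin 7)) ⊆ {a, b, c} := fun x _ => hno x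
    have h2 := Finset.card_le_card h1
    have h3 : ({a, b, c} : Finset (Fin 7)).card ≤ 3 := Finset.card_le_three
    rw [Finset.card_univ, Fintype.card_fin] at h2
    omega
  simp only [Finset.mem_insert, Finset.mem_singleton, not_or] at hd
  obtain ⟨g, h0, h1, h2, -⟩ := exists_four a b c d hab hac (Ne.symm hd.1) hbc (Ne.symm hd.2.1) (Ne.symm hd.2.2)
  exact ⟨g, h0, h1, h2⟩

theorem exists_two (a b : Fin 7) (hab : a ≠ b) : ∃ g : alternatingGroup (Fin 7),
      (g : Perm (Fin 7)) 0 = a ∧ (g : Perm (Fin 7)) 1 = b := by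
  obtain ⟨d, hd⟩ : ∃ d, d ∉ ({a, b} : Finset (Fin 7)) := by
    by_contra hno
    push Not at hno
    have h1 : (Finset.univ : Finset (Fin 7)) ⊆ {a, b} := fun x _ => hno x
    have h2 := Finset.card_le_card h1
    have h3 : ({a, b} : Finset (Fin 7)).card ≤ 2 := Finset.card_le_two
    rw [Finset.card_univ, Fintype.card_fin] at h2
    omega
  simp only [Finset.mem_insert, Finset.mem_singleton, not_or] at hd
  obtain ⟨g, h0, h1, -⟩ := exists_three a b d hab (Ne.symm hd.1) (Ne.symm hd.2)
  exact ⟨g, h0, h1⟩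

theorem exists_pair (s : X2) : ∃ a b, a ≠ b ∧ s.1 = {a, b} := Finset.card_eq_two.1 s.2

theorem smul_eq {g : alternatingGroup (Fin 7)} {u v a b : Fin 7} (h : ({u, v} : Finset (Fin 7)).card = 2)
    (s : X2) (hs : s.1 = {a, b}) (h1 : (g : Perm (Fin 7)) u = a) (h2 : (g : Perm (Fin 7)) v = b) :
    g • (Subtype.mk {u, v} h : X2) = s := by
  apply Subtype.ext
  rw [smul_val', hs, ← h1, ← h2]
  ext x
  simp

/-- points × points -/
theorem orb11 : Nat.card (MulAction.orbitRel.Quotient (alternatingGroup (Fin 7)) (Fin 7 × Fin 7)) = 2 := by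
  refine card_orbits_of (fun x => if x.1 = x.2 then 0 else 1) ![(0, 0), (0, 1)] ?_ ?_ ?_
  · intro g x
    have : ((g • x).1 = (g • x).2) ↔ x.1 = x.2 := by
      show (g : Perm (Fin 7)) x.1 = (g : Perm (Fin 7)) x.2 ↔ _
      rw [EmbeddingLike.apply_eq_iff_eq]
    simp only [this]
  · intro i
    fin_cases i <;> rfl
  · rintro ⟨a, b⟩
    by_cases hab : a = b
    · subst hab
      obtain ⟨c, hc⟩ := exists_ne a
      obtain ⟨g, h0, -⟩ := exists_two a c hc.symm
      refine ⟨g, ?_⟩
      rw [if_pos rfl]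
      exact Prod.ext h0 h0
    · obtain ⟨g, h0, h1⟩ := exists_two a b hab
      refine ⟨g, ?_⟩
      rw [if_neg hab]
      exact Prod.ext h0 h1

theorem mem_smul_iff (g : alternatingGroup (Fin 7)) (s : X2) (i : Fin 7) :
    g • i ∈ (g • s).1 ↔ i ∈ s.1 := by
  rw [smul_val']
  show (g : Perm (Fin 7)) i ∈ _ ↔ _
  exact Finset.mem_map' _

/-- the pair of the first two points -/
def s01 : X2 := ⟨{0, 1}, by decide⟩

theorem exists_rep1 (s : X2) (i : Fin 7) : ∃ g : alternatingGroup (Fin 7),
    g • s01 = s ∧ g • (if i ∈ s.1 then (0 : Fin 7) else 2) = i := by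
  obtain ⟨a, b, hab, hs⟩ := exists_pair s
  by_cases hi : i ∈ s.1
  · rw [if_pos hi]
    rw [hs, Finset.mem_insert, Finset.mem_singleton] at hi
    rcases hi with rfl | rfl
    · obtain ⟨g, h0, h1⟩ := exists_two i b hab
      exact ⟨g, smul_eq _ s hs h0 h1, h0⟩
    · obtain ⟨g, h0, h1⟩ := exists_two i a hab.symm
      exact ⟨g, smul_eq _ s (hs.trans (Finset.pair_comm a i)) h0 h1, h0⟩
  · rw [if_neg hi]
    rw [hs, Finset.mem_insert, Finset.mem_singleton, not_or] at hi
    obtain ⟨g, h0, h1, h2⟩ := exists_three a b i hab (Ne.symm hi.1) (Ne.symm hi.2)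
    exact ⟨g, smul_eq _ s hs h0 h1, h2⟩

/-- pairs × points -/
theorem orb21 : Nat.card (MulAction.orbitRel.Quotient (alternatingGroup (Fin 7)) (X2 × Fin 7)) = 2 := by
  refine card_orbits_of (fun x => if x.2 ∈ x.1.1 then 0 else 1) ![(s01, 0), (s01, 2)] ?_ ?_ ?_
  · intro g x
    have : ((g • x).2 ∈ (g • x).1.1) ↔ x.2 ∈ x.1.1 := mem_smul_iff g x.1 x.2
    simp only [this]
  · intro i
    fin_cases i <;> rfl
  · rintro ⟨s, i⟩
    obtain ⟨g, h1, h2⟩ := exists_rep1 s i
    refine ⟨g, ?_⟩
    by_cases hi : i ∈ s.1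
    · rw [if_pos hi] at h2
      simp only [hi, if_true]
      exact Prod.ext h1 h2
    · rw [if_neg hi] at h2
      simp only [hi, if_false]
      exact Prod.ext h1 h2

theorem card_inter_smul (g : alternatingGroup (Fin 7)) (s t : X2) :
    ((g • s).1 ∩ (g • t).1).card = (s.1 ∩ t.1).card := by
  rw [smul_val', smul_val', ← Finset.map_inter, Finset.card_map]

theorem card_inter_lt (s t : X2) : (s.1 ∩ t.1).card < 3 := by
  have h1 := Finset.card_le_card (Finset.inter_subset_left : s.1 ∩ t.1 ⊆ s.1)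
  rw [s.2] at h1
  omega

def t2 : X2 := ⟨{0, 2}, by decide⟩
def t23 : X2 := ⟨{2, 3}, by decide⟩

/-- pairs × pairs -/
theorem orb22 : Nat.card (MulAction.orbitRel.Quotient (alternatingGroup (Fin 7)) (X2 × X2)) = 3 := by
  refine card_orbits_of (fun x => ⟨(x.1.1 ∩ x.2.1).card, card_inter_lt _ _⟩)
    ![(s01, t23), (s01, t2), (s01, s01)] ?_ ?_ ?_
  · intro g x
    exact Fin.ext (card_inter_smul g x.1 x.2)
  · intro i
    fin_cases i <;> rfl
  · rintro ⟨s, t⟩
    obtain ⟨a, b, hab, hs⟩ := exists_pair s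
    obtain ⟨c, d, hcd, ht⟩ := exists_pair t
    -- the second pair in the position of the first
    have key : ∀ (a b : Fin 7), a ≠ b → s.1 = {a, b} → a ∈ t.1 → b ∉ t.1 →
        ∃ g : alternatingGroup (Fin 7), g • (s01, t2) = (s, t) := by
      intro a b hab hs ha hb
      have h1 : ∃ e, t.1 = {a, e} ∧ a ≠ e := by
        rw [ht, Finset.mem_insert, Finset.mem_singleton] at ha
        rcases ha with rfl | rfl
        · exact ⟨d, ht, hcd⟩
        · exact ⟨c, ht.trans (Finset.pair_comm _ _), hcd.symm⟩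
      obtain ⟨e, he, hae⟩ := h1
      have hbe : b ≠ e := by
        rintro rfl
        rw [he] at hb
        simp at hb
      obtain ⟨g, h0, h1, h2⟩ := exists_three a b e hab hae hbe
      exact ⟨g, Prod.ext (smul_eq _ s hs h0 h1) (smul_eq _ t he h0 h2)⟩
    by_cases ha : a ∈ t.1 <;> by_cases hb : b ∈ t.1
    · have hst : s = t := by
        apply Subtype.ext
        apply Finset.eq_of_subset_of_card_le
        · rw [hs]
          intro x hx
          rw [Finset.mem_insert, Finset.mem_singleton] at hx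
          rcases hx with rfl | rfl
          · exact ha
          · exact hb
        · rw [s.2, t.2]
      subst hst
      have hF : (⟨(s.1 ∩ s.1).card, card_inter_lt _ _⟩ : Fin 3) = 2 := by
        apply Fin.ext
        show (s.1 ∩ s.1).card = 2
        rw [Finset.inter_self, s.2]
      obtain ⟨g, h0, h1⟩ := exists_two a b hab
      refine ⟨g, ?_⟩
      show g • ![(s01, t23), (s01, t2), (s01, s01)] (⟨(s.1 ∩ s.1).card, card_inter_lt _ _⟩ : Fin 3) = (s, s)
      rw [hF]
      exact Prod.ext (smul_eq _ s hs h0 h1) (smul_eq _ s hs h0 h1)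
    · have hF : (⟨(s.1 ∩ t.1).card, card_inter_lt _ _⟩ : Fin 3) = 1 := by
        apply Fin.ext
        show (s.1 ∩ t.1).card = 1
        rw [hs, Finset.insert_inter_of_mem ha, Finset.singleton_inter_of_notMem hb]
        rfl
      obtain ⟨g, hg⟩ := key a b hab hs ha hb
      refine ⟨g, ?_⟩
      show g • ![(s01, t23), (s01, t2), (s01, s01)] (⟨(s.1 ∩ t.1).card, card_inter_lt _ _⟩ : Fin 3) = (s, t)
      rw [hF]
      exact hg
    · have hF : (⟨(s.1 ∩ t.1).card, card_inter_lt _ _⟩ : Fin 3) = 1 := by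
        apply Fin.ext
        show (s.1 ∩ t.1).card = 1
        rw [hs, Finset.pair_comm, Finset.insert_inter_of_mem hb, Finset.singleton_inter_of_notMem ha]
        rfl
      obtain ⟨g, hg⟩ := key b a hab.symm (hs.trans (Finset.pair_comm _ _)) hb ha
      refine ⟨g, ?_⟩
      show g • ![(s01, t23), (s01, t2), (s01, s01)] (⟨(s.1 ∩ t.1).card, card_inter_lt _ _⟩ : Fin 3) = (s, t)
      rw [hF]
      exact hg
    · have hF : (⟨(s.1 ∩ t.1).card, card_inter_lt _ _⟩ : Fin 3) = 0 := by
        apply Fin.ext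
        show (s.1 ∩ t.1).card = 0
        rw [hs, Finset.insert_inter_of_notMem ha, Finset.singleton_inter_of_notMem hb]
        rfl
      have hac : a ≠ c := by
        rintro rfl
        rw [ht] at ha
        simp at ha
      have had : a ≠ d := by
        rintro rfl
        rw [ht] at ha
        simp at ha
      have hbc : b ≠ c := by
        rintro rfl
        rw [ht] at hb
        simp at hb
      have hbd : b ≠ d := by
        rintro rfl
        rw [ht] at hb
        simp at hb
      obtain ⟨g, h0, h1, h2, h3⟩ := exists_four a b c d hab hac had hbc hbd hcd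
      refine ⟨g, ?_⟩
      show g • ![(s01, t23), (s01, t2), (s01, s01)] (⟨(s.1 ∩ t.1).card, card_inter_lt _ _⟩ : Fin 3) = (s, t)
      rw [hF]
      exact Prod.ext (smul_eq _ s hs h0 h1) (smul_eq _ t ht h2 h3)

theorem card_X2 : Nat.card X2 = 21 := by
  rw [Nat.card_eq_fintype_card, Fintype.card_finset_len, Fintype.card_fin]
  rfl

/-- the difference of the permutation characters -/
noncomputable def fS : alternatingGroup (Fin 7) → ℂ :=
  permC (alternatingGroup (Fin 7)) X2 - permC (alternatingGroup (Fin 7)) (Fin 7)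

theorem orb12 : Nat.card (MulAction.orbitRel.Quotient (alternatingGroup (Fin 7)) (Fin 7 × X2)) = 2 := by
  refine card_orbits_of (fun x => if x.1 ∈ x.2.1 then 0 else 1) ![(0, s01), (2, s01)] ?_ ?_ ?_
  · intro g x
    have : ((g • x).1 ∈ (g • x).2.1) ↔ x.1 ∈ x.2.1 := mem_smul_iff g x.2 x.1
    simp only [this]
  · intro i
    fin_cases i <;> rfl
  · rintro ⟨i, s⟩
    obtain ⟨g, h1, h2⟩ := exists_rep1 s i
    refine ⟨g, ?_⟩
    by_cases hi : i ∈ s.1
    · rw [if_pos hi] at h2
      simp only [hi, if_true]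
      exact Prod.ext h2 h1
    · rw [if_neg hi] at h2
      simp only [hi, if_false]
      exact Prod.ext h2 h1

theorem norm_fS [Fintype (alternatingGroup (Fin 7))] : classInner fS fS = 1 := by
  rw [fS, classInner_sub_left, classInner_sub_right, classInner_sub_right, classInner_permC,
    classInner_permC, classInner_permC, classInner_permC, orb11, orb12, orb21, orb22]
  norm_num

theorem fS_one : fS 1 = 14 := by
  rw [fS, Pi.sub_apply, permC_one, permC_one, card_X2, Nat.card_eq_fintype_card, Fintype.card_fin]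
  norm_num

theorem deg_fS : charDegree fS = 14 := by
  rw [charDegree, fS_one]
  norm_num

theorem irr_fS : IsIrrCharacter (alternatingGroup (Fin 7)) fS := by
  classical
  haveI := Fintype.ofFinite (alternatingGroup (Fin 7))
  have hg : IsGeneralizedCharacter (alternatingGroup (Fin 7)) fS :=
    ⟨_, _, Cfsg.Agent.S0157.isCharacter_fixedBy X2, Cfsg.Agent.S0157.isCharacter_fixedBy (Fin 7), rfl⟩
  rcases isIrr_of_generalized hg norm_fS with h | h
  · exact h
  · exfalso
    obtain ⟨n, ρ, -, hρ⟩ := h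
    have h1 := congrFun hρ 1
    rw [Representation.char_one, Module.finrank_fin_fun, Pi.neg_apply, fS_one] at h1
    have h2 : ((n : ℝ) : ℂ) = ((-14 : ℝ) : ℂ) := by
      push_cast
      exact h1
    have h3 := Complex.ofReal_injective h2
    have h4 : (0 : ℝ) ≤ n := Nat.cast_nonneg n
    linarith

/-- **The alternating group of degree seven.** -/
theorem orthRow_seven : OrthRow (alternatingGroup (Fin 7)) := by
  classical
  have hc := center_alt (n := 7) (by norm_num)
  haveI := Fintype.ofFinite (MulAut (alternatingGroup (Fin 7)))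
  haveI := Fintype.ofFinite (⊤ : Subgroup (MulAut (alternatingGroup (Fin 7))))
  let e : Perm (Fin 7) ≃* MulAut (alternatingGroup (Fin 7)) :=
    MulEquiv.ofBijective MulAut.conjNormal (S2119.result 7 (by norm_num) (by norm_num))
  have hπ : RChar (permC (Perm (Fin 7)) X2 - permC (Perm (Fin 7)) (Fin 7)) :=
    (rchar_perm X2).sub (rchar_perm (Fin 7))
  have hπ' := hπ.comp (e.symm.toMonoidHom.comp
    (⊤ : Subgroup (MulAut (alternatingGroup (Fin 7)))).subtype)
  have hNJ : ∀ s : alternatingGroup (Fin 7), MulAut.conj s ∈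
      (⊤ : Subgroup (MulAut (alternatingGroup (Fin 7)))) := fun s => Subgroup.mem_top _
  have hres : (fun s : alternatingGroup (Fin 7) => (fun x => (permC (Perm (Fin 7)) X2 -
      permC (Perm (Fin 7)) (Fin 7)) ((e.symm.toMonoidHom.comp
    (⊤ : Subgroup (MulAut (alternatingGroup (Fin 7)))).subtype) x)) ⟨MulAut.conj s, hNJ s⟩) = fS := by
    funext s
    have h1 : e.symm (MulAut.conj s) = (s : Perm (Fin 7)) := by
      rw [MulEquiv.symm_apply_eq]
      refine MulEquiv.ext fun x => Subtype.ext ?_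
      show _ = ((MulAut.conjNormal (s : Perm (Fin 7)) x : alternatingGroup (Fin 7)) : Perm (Fin 7))
      rw [MulAut.conjNormal_apply]
      rfl
    show (permC (Perm (Fin 7)) X2 - permC (Perm (Fin 7)) (Fin 7)) (e.symm (MulAut.conj s)) = fS s
    rw [h1]
    rfl
  have hS : RChar fS := by
    rw [← hres]
    exact hπ'.comp (toJ ⊤ hNJ)
  have hind : ind fS = 1 := by
    rcases Cfsg.Agent.H694.ind_cases irr_fS with h | h | h
    · obtain ⟨g, hg⟩ := (Cfsg.Agent.H694.ind_eq_zero_iff irr_fS).1 h
      exact absurd (Complex.conj_eq_iff_im.1 (hS.real g)) hg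
    · exact h
    · obtain ⟨n, hn⟩ := hS.even fS irr_fS h
      rw [norm_fS] at hn
      have : (1 : ℤ) = 2 * n := by exact_mod_cast hn
      omega
  have hmu : mu fS fS = 1 := mu_eq (by rw [norm_fS]; norm_num)
  refine ⟨fS, irr_fS, by rw [deg_fS]; decide, by rw [deg_fS]; norm_num, fun _ => by rw [deg_fS]; norm_num,
    oext_of_real hc irr_fS hind ⊤ hNJ hπ' ?_ ?_⟩
  · rw [hres, hmu]
    exact odd_one
  · rw [Subgroup.relIndex_top_left]
    exact odd_one

end Cfsg.Agent.H727.Orth.Seven
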